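import Cfsg.Agent.H983.ElPar.Base
import Cfsg.Agent.H138.SqChev2
import Cfsg.Agent.KFacts.RgdFiltChev
import Cfsg.Agent.KFacts.RgdFiltTwAll

/-!
# `p`-local subgroups of the exceptional groups of Lie type (helper983)

The tables of helper138 (`H138/SqBase.lean`, `SqChev.lean`, `SqChev2.lean`) with Borel–Tits instead of the classification
of the subgroups of square-free index.
-/

set_option autoImplicit false
set_option linter.unusedSectionVars false

namespace Cfsg.Agent.H983.ElPar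

open Cfsg
open CoxeterSystem Cfsg.Agent.ChevalleyStructure.CoxeterGeom Cfsg.Agent.Tits.Roots Cfsg.Agent.Tits.Core
  Cfsg.Agent.Tits.RootComb Cfsg.Agent.Nodes.Comb Cfsg.Agent.Nodes.Reps Cfsg.Agent.Nodes.BNOf
  Cfsg.Agent.Nodes.StabComb Cfsg.Agent.Nodes.Bruhat Cfsg.Agent.Nodes.LeviDec Cfsg.Agent.Nodes.NormalForm
  Cfsg.Agent.ParSys Cfsg.Agent.ParSys.RootCount Cfsg.Agent.Tits.Exchange
  Cfsg.Agent.Omega.EH3Close.CountU
open Cfsg.Agent.H396 (Der Conn der_of_prime)
open Cfsg.Agent.H138.SqBase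
open Cfsg.Agent.KFacts.RgdBorelTits Cfsg.Agent.KFacts.RgdFilt

section Main

variable {k : ℕ} {W Y : Type*} [Group W] [Group Y] {M : CoxeterMatrix (Fin k)}
  {cs : CoxeterSystem M W} {A : Fin k → Fin k → ℤ} {h : IsCartan M A} {p : ℕ} {T : Subgroup Y} {n : Fin k → Y}
  {X : (Fin k → ℤ) → Subgroup Y}

/-- **normalisers of `p`-subgroups from a filtered root group datum.** -/
theorem np_of_rgd [Finite W] [Finite Y] [Fact p.Prime] (R : RGD cs h p T n X) {Fl : (Fin k → ℤ) → ℝ → Subgroup Y}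
    (hFl : Filt R Fl) (hG : Nodes.RGDLib.G1 cs h X = ⊤)
    {L : List (Fin k → ℤ)} (hR : PosRoots A L.toFinset) (hN : L.Nodup) {len : (Fin k → ℤ) → ℕ}
    (hlen : ∀ i, ∀ v ∈ L, v ≠ Pi.single i 1 → len (refl A i v) = len v)
    {q d u : ℕ} (hq2 : 2 ≤ q) (hpq : p ∣ q) (hq : ∀ i, Nat.card (X (sr i)) = q ^ len (Pi.single i 1))
    (hu : H436.Prim q d u) (hd : 2 ≤ d) (hT : ¬ u ∣ Nat.card T) (hY : u ∣ Nat.card Y)
    {Tb : List (ℕ × ℕ)} (hTb : (L.map fun v => (supp v, len v)) = Tb) {bad : List ℕ}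
    (hchk : chk k d Tb bad = true)
    (hbad : ∀ J : Finset (Fin k), mJ J ∈ bad →
      ∃ J₁ : Finset (Fin k), J₁ ⊆ J ∧ J₁.Nonempty ∧ J₁ ≠ J ∧ ∀ a ∈ J₁, ∀ b ∈ J, b ∉ J₁ → M a b = 2) : NP p Y := by
  have hup : u ≠ p := by
    rintro rfl
    exact hu.not_dvd hpq
  intro V hV hV1
  obtain ⟨g, K, hK, -, hle⟩ := borel_tits_of_filt hFl hG hV hV1
  have hle' : cj g⁻¹ (Subgroup.normalizer (V : Set Y)) ≤ PJ cs h T X K := by
    rw [← cj_inv_cj g (PJ cs h T X K)]
    exact cj_mono g⁻¹ hle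
  refine der_of_prime hu.prime hY (H396.Crit.not_dvd_card R hu.prime hup hT ?_ hK hle')
  intro J hJ hJ' hconn
  have hcard : Nat.card (RGD.Sup X (PosJ cs h (J : Set (Fin k)))) = q ^ H138.SqBase.NN Tb (mJ J) := by
    classical
    rw [card_UJ R hR (wt := fun v => q ^ len v) (fun i v hv hne => by
      rw [hlen i v (List.mem_toFinset.1 hv) hne]) hq (J : Set (Fin k))]
    have e1 : (L.toFinset.filter fun v => ∀ i, i ∉ (J : Set (Fin k)) → v i = 0) =
        (L.filter fun v => supp v &&& mJ J == supp v).toFinset := by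
      ext v
      rw [Finset.mem_filter, List.mem_toFinset, List.mem_toFinset, List.mem_filter, beq_iff_eq, supp_land]
    rw [e1, List.prod_toFinset _ (hN.filter _)]
    unfold H138.SqBase.NN
    rw [← hTb]
    have e2 : ∀ L' : List (Fin k → ℤ), (L'.map fun v => q ^ len v).prod = q ^ (L'.map len).sum := by
      intro L'
      induction L' with
      | nil => simp
      | cons a L' ih => rw [List.map_cons, List.prod_cons, ih, List.map_cons, List.sum_cons, pow_add]
    rw [e2, List.filter_map, List.map_map]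
    rfl
  rw [hcard, ← pc_mJ J]
  refine not_dvd_of_okB hq2 hu hd ?_
  have h1 := (List.all_eq_true.1 hchk) (mJ J) (List.mem_range.2 (msk_lt _))
  rw [Bool.or_eq_true, Bool.or_eq_true, Bool.or_eq_true] at h1
  rcases h1 with ((h1 | h1) | h1) | h1
  · exfalso
    rw [beq_iff_eq] at h1
    have h2 : mJ (∅ : Finset (Fin k)) = 0 := by
      apply Nat.eq_of_testBit_eq
      intro j
      rw [Nat.zero_testBit]
      by_cases hj : j < k
      · have h1 := testBit_msk (fun i : Fin k => decide (i ∈ (∅ : Finset (Fin k)))) ⟨j, hj⟩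
        simpa [mJ] using h1
      · exact Nat.testBit_lt_two_pow (lt_of_lt_of_le (msk_lt _) (Nat.pow_le_pow_right two_pos (not_lt.1 hj)))
    have h3 := mJ_inj (h1.trans h2.symm)
    rw [h3] at hJ
    exact Finset.not_nonempty_empty hJ
  · exfalso
    rw [beq_iff_eq] at h1
    apply hJ'
    ext i
    simp only [Finset.mem_univ, iff_true]
    have h2 : (2 ^ k - 1).testBit i = true := by
      rw [Nat.testBit_two_pow_sub_one]
      exact decide_eq_true i.2
    rw [← h1] at h2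
    simp only [mJ, testBit_msk] at h2
    simpa using h2
  · exfalso
    obtain ⟨J₁, h2, h3, h4, h5⟩ := hbad J (List.contains_iff_mem.1 h1)
    obtain ⟨a, ha, b, hb, hb1, hab⟩ := hconn J₁ h2 h3 h4
    exact hab (h5 a ha b hb hb1)
  · exact h1

end Main

/-! ### untwisted groups -/

section Chev

open Cfsg.Agent.Nodes Cfsg.Agent.Nodes.RGDLib Cfsg.Agent.Nodes.RGDChev
open Cfsg.Agent.ChevalleyStructure Cfsg.Agent.ChevalleyStructure.Elts Cfsg.Agent.ChevalleyStructure.NPerm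
  Cfsg.Agent.ChevalleyStructure.CoxeterGeomTypes
open Cfsg.Agent.ParSys.RootExc
open Cfsg.Agent.H138.SqChev
open Cfsg.Lie

universe u

theorem np_chev {D : ChevalleyDatum} {l : ℕ} {M : CoxeterMatrix (Fin l)} (hp : IsType D l M) (K : Type u)
    [Field K] [Fintype K] {p : ℕ} [CharP K p]
    {A₀ : Fin l → Fin l → ℤ} (hA : cartanOf D l = A₀) {L : List (Fin l → ℤ)}
    (hR : PosRoots A₀ L.toFinset) (hN : L.Nodup) {d : ℕ} (hd : 3 ≤ d) (h6 : ¬ (Fintype.card K = 2 ∧ d = 6))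
    {Tb : List (ℕ × ℕ)} (hTb : (L.map fun v => (supp v, 1)) = Tb) {bad : List ℕ} (hchk : chk l d Tb bad = true)
    (hbad : ∀ J : Finset (Fin l), mJ J ∈ bad →
      ∃ J₁ : Finset (Fin l), J₁ ⊆ J ∧ J₁.Nonempty ∧ J₁ ≠ J ∧ ∀ a ∈ J₁, ∀ b ∈ J, b ∉ J₁ → M a b = 2)
    (hY : ∀ u, H436.Prim (Fintype.card K) d u → u ∣ Nat.card ↥(D.group K)) : NP p ↥(D.group K) := by
  have : Fact p.Prime := ⟨CharP.char_is_prime K p⟩
  have hW : Finite M.Group := finite_W hp M.toCoxeterSystem
  obtain ⟨u, hu⟩ := H436.exists_prim (q := Fintype.card K) (e := d) (Fintype.one_lt_card (α := K)) hd h6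
  subst hA
  refine np_of_rgd (rgd (K := K) hp M.toCoxeterSystem p) (KFacts.RgdFiltChev.filt hp M.toCoxeterSystem p)
    (G1_eq_top hp _) hR hN
    (len := fun _ => 1) (fun _ _ _ _ => rfl) (Fintype.one_lt_card (α := K)) ?_ (fun i => ?_) hu (by omega) ?_ (hY u hu)
    hTb hchk hbad
  · obtain ⟨k, hk⟩ := FiniteField.card K p
    rw [hk.2]
    exact dvd_pow_self p k.ne_zero
  · rw [pow_one]
    exact card_X hp K i
  · refine not_dvd_of_pow (e := 1) hu (by intro h1; have := Nat.le_of_dvd one_pos h1; omega) ?_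
    intro t ht
    rw [pow_one]
    apply Subtype.ext
    rw [SubgroupClass.coe_pow]
    exact diag_pow hp K (Subgroup.mem_subgroupOf.1 ht)

variable {F : Type} [Field F] [Fintype F] {p : ℕ} [CharP F p]

theorem np_E6 : NP p ↥(chevE6.group F) := by
  have hp : IsType chevE6 6 CoxeterMatrix.E₆ := by simp [IsType, typeList]
  have h4 : ∀ i j, CoxeterMatrix.E₆ i j ≠ 4 := fun i j => (H396.CommTab.lab_E6 i j).1
  have h6 : ∀ i j, CoxeterMatrix.E₆ i j ≠ 6 := fun i j => (H396.CommTab.lab_E6 i j).2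
  refine np_chev (p := p) hp F
    (Omega.EH3Close.Numb.cartan_eq hp.isCartan ParSys.RootExc.isCartan_E6 h4 h6)
    (L := LE6) posRoots_E6 (by decide +kernel) (d := 9) (by norm_num) (by omega) rfl (bad := [])
    (by decide +kernel) (fun J hJ => absurd hJ (by simp)) (fun u hu => ?_)
  have h1 := Cfsg.Agent.S1063.result (F := F) rfl
  refine Prim.dvd_of_gcd hu (by norm_num) (c := Nat.gcd 3 (Fintype.card F - 1))
    (Or.inr (Or.inl (Nat.gcd_dvd_right _ _))) ?_
  rw [h1]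
  exact Dvd.dvd.mul_right (Dvd.dvd.mul_left (hu.dvd dvd_rfl) _) _

theorem np_E7 : NP p ↥(chevE7.group F) := by
  have hp : IsType chevE7 7 CoxeterMatrix.E₇ := by simp [IsType, typeList]
  have h4 : ∀ i j, CoxeterMatrix.E₇ i j ≠ 4 := fun i j => (H396.CommTab.lab_E7 i j).1
  have h6 : ∀ i j, CoxeterMatrix.E₇ i j ≠ 6 := fun i j => (H396.CommTab.lab_E7 i j).2
  refine np_chev (p := p) hp F
    (Omega.EH3Close.Numb.cartan_eq hp.isCartan ParSys.RootExc.isCartan_E7 h4 h6)
    (L := LE7) posRoots_E7 (by decide +kernel) (d := 14) (by norm_num) (by omega) rfl (bad := [55, 103, 107])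
    (by decide +kernel) (fun J hJ => ?_) (fun u hu => ?_)
  · simp only [List.mem_cons, List.not_mem_nil, or_false] at hJ
    have e1 : mJ ({0, 1, 2, 4, 5} : Finset (Fin 7)) = 55 := by decide +kernel
    have e2 : mJ ({0, 1, 2, 5, 6} : Finset (Fin 7)) = 103 := by decide +kernel
    have e3 : mJ ({0, 1, 3, 5, 6} : Finset (Fin 7)) = 107 := by decide +kernel
    rcases hJ with hJ | hJ | hJ
    · obtain rfl := mJ_inj (hJ.trans e1.symm)
      exact ⟨{1}, by decide +kernel, by decide +kernel, by decide +kernel, fun a ha b => dis_E7_1 a b ha⟩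
    · obtain rfl := mJ_inj (hJ.trans e2.symm)
      exact ⟨{1}, by decide +kernel, by decide +kernel, by decide +kernel, fun a ha b => dis_E7_2 a b ha⟩
    · obtain rfl := mJ_inj (hJ.trans e3.symm)
      exact ⟨{0}, by decide +kernel, by decide +kernel, by decide +kernel, fun a ha b => dis_E7_3 a b ha⟩
  · have h1 := Cfsg.Agent.S1064.result (F := F) rfl
    refine Prim.dvd_of_gcd hu (by norm_num) (c := Nat.gcd 2 (Fintype.card F - 1))
      (Or.inr (Or.inl (Nat.gcd_dvd_right _ _))) ?_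
    rw [h1]
    exact Dvd.dvd.mul_right (Dvd.dvd.mul_left (hu.dvd dvd_rfl) _) _

theorem np_E8 : NP p ↥(chevE8.group F) := by
  have hp : IsType chevE8 8 CoxeterMatrix.E₈ := by simp [IsType, typeList]
  have h4 : ∀ i j, CoxeterMatrix.E₈ i j ≠ 4 := fun i j => (H396.CommTab.lab_E8 i j).1
  have h6 : ∀ i j, CoxeterMatrix.E₈ i j ≠ 6 := fun i j => (H396.CommTab.lab_E8 i j).2
  refine np_chev (p := p) hp F
    (Omega.EH3Close.Numb.cartan_eq hp.isCartan ParSys.RootExc.isCartan_E8 h4 h6)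
    (L := LE8) posRoots_E8 (by decide +kernel) (d := 24) (by norm_num) (by omega) rfl (bad := [])
    (by decide +kernel) (fun J hJ => absurd hJ (by simp)) (fun u hu => ?_)
  have h1 := Cfsg.Agent.S1065.result (F := F) rfl
  rw [h1]
  exact Dvd.dvd.mul_right (Dvd.dvd.mul_left (hu.dvd dvd_rfl) _) _

open Cfsg.Agent.H138.SqChev2

theorem np_F4 : NP p ↥(chevF4.group F) := by
  have hp := Omega.ML.Ex.Lie2.DatF4.isType_F4
  refine np_chev (p := p) hp F (A₀ := BF) (by decide +kernel)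
    (L := LF) posRoots_F (by decide +kernel) (d := 12) (by norm_num) (by omega) rfl (bad := [])
    (by decide +kernel) (fun J hJ => absurd hJ (by simp)) (fun u hu => ?_)
  have h1 := Cfsg.Agent.S1062.result (F := F) rfl
  rw [h1]
  exact Dvd.dvd.mul_left (hu.dvd dvd_rfl) _

theorem np_G2 : NP p ↥(chevG2.group F) := by
  have hp := Cfsg.Agent.Omega.EH3.Kf.FamG2.isType
  refine np_chev (p := p) hp F (A₀ := BG) (by decide +kernel)
    (L := LG) posRoots_G (by decide +kernel) (d := 3) (by norm_num) (by omega) rfl (bad := [])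
    (by decide +kernel) (fun J hJ => absurd hJ (by simp)) (fun u hu => ?_)
  have h1 := Cfsg.Agent.S1059.result (F := F) rfl
  rw [h1]
  exact Dvd.dvd.mul_left (hu.dvd (by norm_num)) _

end Chev

/-! ### twisted groups -/

section D4

open Cfsg.Agent.Nodes Cfsg.Agent.Nodes.RGDLib Cfsg.Agent.Nodes.RGDChev
open Cfsg.Agent.ChevalleyStructure Cfsg.Agent.ChevalleyStructure.Elts Cfsg.Agent.ChevalleyStructure.NPerm
  Cfsg.Agent.ChevalleyStructure.CoxeterGeomTypes
open Cfsg.Agent.Omega.EH3.Kf Cfsg.Agent.Omega.EH3.Kf.Lev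
open Cfsg.Agent.H138.SqChev Cfsg.Agent.H138.SqChev2
open Cfsg.Lie
open Cfsg.Agent.Nodes.RGDTwGen Cfsg.Agent.Nodes.RGDFold
open Cfsg.Agent.ChevalleyStructure.TwistedU Cfsg.Agent.ChevalleyStructure.TwistedFix
open Cfsg.Agent.ChevalleyStructure.D4Fixed (sig)
open Cfsg.Agent.ChevalleyStructure.D4U
open Cfsg.Agent.Nodes.RGDTwD4 Cfsg.Agent.Hexagon
open Cfsg.Agent.SplitTwo (HexPar HexRel)

variable {K : Type} [Field K] [Fintype K] {p : ℕ} [CharP K p]

theorem np_twD4 {q : ℕ} (hq : IsPrimePow q) (hK : Fintype.card K = q ^ 3) : NP p ↥(twistedD4 K q) := by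
  have : Fact p.Prime := ⟨CharP.char_is_prime K p⟩
  obtain ⟨φ, hφ⟩ := D4Fixed.exists_frob hq hK
  let σ : K ≃+* K := RingEquiv.ofBijective φ ((Finite.injective_iff_bijective).1 φ.injective)
  have hσ : ∀ x, σ x = φ x := fun x => rfl
  have h3 : ∀ a, σ (σ (σ a)) = a := by
    intro t
    rw [hσ, hσ, hσ, hφ, hφ, hφ, ← pow_mul, ← pow_mul]
    have : q * (q * q) = q ^ 3 := by ring
    rw [this, ← hK]
    exact FiniteField.pow_card t
  have hle := D4Fixed.twisted_le_fix hK hφ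
  have P := TwD4Par.hexPar hφ hle hσ h3
  have hfin : Finite ↥(twistedD4 K q) := inferInstance
  have hW : Finite CoxeterMatrix.G₂.Group :=
    RGDFold.finite_W (hp := RGDTwD4.hp) CoxeterMatrix.G₂.toCoxeterSystem RGDTwD4.isCartan foldData
  obtain ⟨u, hu⟩ := H436.exists_prim (q := q) (e := 12) hq.two_le (by norm_num) (by norm_num)
  refine np_of_rgd (RGDTwD4.rgd CoxeterMatrix.G₂.toCoxeterSystem hK hφ p)
    (KFacts.RgdFiltTwAll.filt_fold CoxeterMatrix.G₂.toCoxeterSystem RGDTwD4.isCartan RGDTwD4.foldData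
      (RGDTwD4.foldGrp hφ (D4Fixed.twisted_le_fix hK hφ)) p)
    (RGDTwD4.G1_eq_top CoxeterMatrix.G₂.toCoxeterSystem hK hφ)
    (L := LD) posRoots_D (by decide +kernel) (len := lenD) (by decide +kernel)
    hq.two_le ?_ (fun i => ?_) hu (by norm_num) ?_ ?_ rfl (bad := []) (by decide +kernel)
    (fun J hJ => absurd hJ (by simp))
  · obtain ⟨k, hk⟩ := FiniteField.card K p
    have h1 : p ∣ q ^ 3 := by rw [← hK, hk.2]; exact dvd_pow_self p k.ne_zero
    exact (Fact.out : p.Prime).dvd_of_dvd_pow h1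
  · fin_cases i
    · change Nat.card (RGDTwD4.X φ q (sr 0)) = q ^ 1
      rw [pow_one, FamD4.X_sr0 hle, card_of_mem (α := {x : K // x ^ q = x})
        (fun t => (TwD4Par.ev TwD4Rel.X6 : K → ↥(twistedD4 K q)) t.1)]
      · exact FixedCard.card_fixed hq.one_lt hK
      · intro a b hab
        refine Subtype.ext (P.inj6 _ _ ?_ ?_ hab)
        · rw [hσ, hφ]; exact a.2
        · rw [hσ, hφ]; exact b.2
      · intro g
        rw [P.mem6]
        constructor
        · rintro ⟨a, ha, rfl⟩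
          rw [hσ, hφ] at ha
          exact ⟨⟨a, ha⟩, rfl⟩
        · rintro ⟨a, rfl⟩
          exact ⟨a.1, by rw [hσ, hφ]; exact a.2, rfl⟩
    · change Nat.card (RGDTwD4.X φ q (sr 1)) = q ^ 3
      rw [FamD4.X_sr1 hle, card_of_mem (α := K)
        (fun t => (TwD4Par.ev (TwD4Rel.X1 σ) : K → ↥(twistedD4 K q)) t), Nat.card_eq_fintype_card, hK]
      · intro a b hab
        exact P.inj1 _ _ hab
      · exact P.mem1
  · refine not_dvd_of_pow (e := 3) hu (by norm_num) ?_
    intro t ht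
    apply Subtype.ext
    rw [SubgroupClass.coe_pow, ← hK]
    exact diag_pow RGDTwD4.hp K ht.1
  · rw [Cfsg.Agent.S1067.result hq hK]
    have h1 : q ^ 12 - 1 = (q ^ 8 + q ^ 4 + 1) * (q ^ 4 - 1) := by
      obtain ⟨m, hm⟩ : ∃ m, q ^ 4 = m + 1 := ⟨q ^ 4 - 1, by
        have := Nat.one_le_pow 4 q (by have := hq.two_le; omega)
        omega⟩
      have e1 : q ^ 12 = (q ^ 4) ^ 3 := by rw [← pow_mul]
      have e2 : q ^ 8 = (q ^ 4) ^ 2 := by rw [← pow_mul]
      rw [e1, e2, hm, Nat.add_sub_cancel]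
      have : (m + 1) ^ 3 = ((m + 1) ^ 2 + (m + 1) + 1) * m + 1 := by ring
      rw [this, Nat.add_sub_cancel]
    have h2 := hu.dvd (m := 12) dvd_rfl
    rw [h1] at h2
    exact Dvd.dvd.mul_left ((hu.prime.dvd_mul.1 h2).resolve_right (hu.not_dvd_sub (by norm_num))) _

end D4

section E6

open Cfsg.Agent.Nodes Cfsg.Agent.Nodes.RGDLib Cfsg.Agent.Nodes.RGDChev
open Cfsg.Agent.ChevalleyStructure Cfsg.Agent.ChevalleyStructure.Elts Cfsg.Agent.ChevalleyStructure.NPerm
  Cfsg.Agent.ChevalleyStructure.CoxeterGeomTypes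
open Cfsg.Agent.Omega.EH3.Kf Cfsg.Agent.Omega.EH3.Kf.Lev
open Cfsg.Agent.H138.SqChev Cfsg.Agent.H138.SqChev2
open Cfsg.Lie
open Cfsg.Agent.Nodes.RGDTwE6 Cfsg.Agent.Nodes.RGDTwCoordE6 Cfsg.Agent.Nodes.RGDTwCoord
  Cfsg.Agent.Nodes.RGDTwComE6 Cfsg.Agent.Nodes.RGDTwActE6 Cfsg.Agent.Nodes.RGDTwTab
  Cfsg.Agent.KFacts.TwESix.Comb

variable {K : Type} [Field K] [Fintype K] {p : ℕ} [CharP K p]

theorem np_twE6 {q : ℕ} (hq : IsPrimePow q) (hK : Fintype.card K = q ^ 2) : NP p ↥(twistedE6 K q) := by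
  have : Fact p.Prime := ⟨CharP.char_is_prime K p⟩
  obtain ⟨φ, hφ, hqq⟩ := ChevalleyStructure.TwE6Basic.exists_frob hq hK
  have hfin : Finite ↥(twistedE6 K q) := inferInstance
  have hW : Finite CoxeterMatrix.F₄.Group := finiteW CoxeterMatrix.F₄.toCoxeterSystem
  obtain ⟨u, hu⟩ := H436.exists_prim (q := q) (e := 18) hq.two_le (by norm_num) (by norm_num)
  refine np_of_rgd (RGDTwE6.rgd CoxeterMatrix.F₄.toCoxeterSystem hφ hqq p)
    (KFacts.RgdFiltTwAll.filt_fold CoxeterMatrix.F₄.toCoxeterSystem RGDTwE6.isCartan RGDTwE6.foldData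
      (RGDTwE6.foldGrp hφ hqq) p)
    (RGDTwE6.G1_eq_top CoxeterMatrix.F₄.toCoxeterSystem hφ hqq)
    (L := ParSys.RootExc.LF4) ParSys.RootExc.posRoots_F4 (by decide +kernel)
    (len := lenE) (by decide +kernel)
    hq.two_le ?_ (fun i => ?_) hu (by norm_num) ?_ ?_ rfl (bad := []) (by decide +kernel)
    (fun J hJ => absurd hJ (by simp))
  · obtain ⟨k, hk⟩ := FiniteField.card K p
    have h1 : p ∣ q ^ 2 := by rw [← hK, hk.2]; exact dvd_pow_self p k.ne_zero
    exact (Fact.out : p.Prime).dvd_of_dvd_pow h1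
  · have hlong : ∀ i : Fin 4, Lg (sr i) → Nat.card (RGDTwE6.X φ q (sr i)) = q := by
      intro i hl
      have hr := isRoot_sr CoxeterMatrix.F₄.toCoxeterSystem RGDTwE6.isCartan i
      rw [card_of_mem (α := {x : K // x ^ q = x}) (fun t => RGDTwComE6.x φ q (sr i) t.1)]
      · exact FixedCard.card_fixed hq.one_lt hK
      · intro a b hab
        refine Subtype.ext (RGDTwActE6.x_inj hφ hqq hr (ok_long hr hl ?_) (ok_long hr hl ?_) hab)
        · rw [hφ]; exact a.2
        · rw [hφ]; exact b.2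
      · intro g
        rw [mem_X_long hφ hqq hr hl]
        constructor
        · rintro ⟨a, ha, rfl⟩
          rw [hφ] at ha
          exact ⟨⟨a, ha⟩, rfl⟩
        · rintro ⟨a, rfl⟩
          exact ⟨a.1, by rw [hφ]; exact a.2, rfl⟩
    have hshort : ∀ i : Fin 4, St (sr i) → Nat.card (RGDTwE6.X φ q (sr i)) = q ^ 2 := by
      intro i hl
      have hr := isRoot_sr CoxeterMatrix.F₄.toCoxeterSystem RGDTwE6.isCartan i
      rw [card_of_mem (α := K) (fun t => RGDTwComE6.x φ q (sr i) t), Nat.card_eq_fintype_card, hK]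
      · intro a b hab
        exact RGDTwActE6.x_inj hφ hqq hr (ok_short hφ hqq hr hl a) (ok_short hφ hqq hr hl b) hab
      · exact mem_X_short hφ hqq hr hl
    have t1 : ∀ i : Fin 4, (i = 0 ∨ i = 1) → Lg (sr i) ∧ lenE (Pi.single i 1) = 1 := by decide +kernel
    have t2 : ∀ i : Fin 4, ¬ (i = 0 ∨ i = 1) → St (sr i) ∧ lenE (Pi.single i 1) = 2 := by decide +kernel
    by_cases hi : i = 0 ∨ i = 1
    · rw [(t1 i hi).2, pow_one]
      exact hlong i (t1 i hi).1
    · rw [(t2 i hi).2]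
      exact hshort i (t2 i hi).1
  · refine not_dvd_of_pow (e := 2) hu (by norm_num) ?_
    intro t ht
    apply Subtype.ext
    rw [SubgroupClass.coe_pow, ← hK]
    exact diag_pow RGDTwE6.hp K ht.1
  · refine Prim.dvd_of_gcd hu (by norm_num) (c := Nat.gcd 3 (q + 1)) (Or.inr (Or.inr (Nat.gcd_dvd_right _ _))) ?_
    rw [Cfsg.Agent.S1066.result hq hK]
    exact Dvd.dvd.mul_right (Dvd.dvd.mul_left (hu.dvd_add (m := 9) (by norm_num) (by norm_num)) _) _

end E6

end Cfsg.Agent.H983.ElPar
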