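import Cfsg.Agent.KFacts.RgdLieCharP
import Cfsg.Agent.KFacts.RgdSyl
import Cfsg.Agent.H396.Der

/-!
# `p`-local subgroups miss an `Aut`-class of elements of prime order: the interface (helper983)

* `DQ p G` : every proper subgroup of index prime to `p` misses a class of elements of prime order (up to
  automorphisms of `G`);
* `NP p G` : the same for the normalisers of nontrivial `p`-subgroups;
* `np_of_filt` : `DQ p G → NP p G` by Borel–Tits.
-/

set_option autoImplicit false
set_option linter.unusedSectionVars false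

namespace Cfsg.Agent.H983.ElPar

open Cfsg.Agent.H396 (Der der_of_prime)
open CoxeterSystem Cfsg.Agent.ChevalleyStructure.CoxeterGeom Cfsg.Agent.Tits.Roots
  Cfsg.Agent.Nodes.Reps Cfsg.Agent.Nodes.BNOf
  Cfsg.Agent.Nodes.Bruhat Cfsg.Agent.Nodes.OppDec Cfsg.Agent.Nodes.LeviDec Cfsg.Agent.Nodes.NormX
  Cfsg.Agent.KFacts.RgdPar Cfsg.Agent.KFacts.RgdCent Cfsg.Agent.KFacts.RgdVJ Cfsg.Agent.KFacts.RgdCharP
  Cfsg.Agent.KFacts.RgdFilt

/-- every proper subgroup of index prime to `p` misses an `Aut`-class of elements of prime order -/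
def DQ (p : ℕ) (G : Type*) [Group G] : Prop := ∀ M : Subgroup G, M ≠ ⊤ → ¬ p ∣ M.index → Der G M

/-- the normaliser of a nontrivial `p`-subgroup misses an `Aut`-class of elements of prime order -/
def NP (p : ℕ) (G : Type*) [Group G] : Prop :=
  ∀ V : Subgroup G, IsPGroup p V → V ≠ ⊥ → Der G (Subgroup.normalizer (V : Set G))

theorem DQ.congr {p : ℕ} {G H : Type*} [Group G] [Group H] (e : G ≃* H) (h : DQ p G) : DQ p H := by
  intro M hM hidx
  refine Cfsg.Agent.H396.Der.congr e (h _ (fun ht => hM ?_) ?_)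
  · rw [eq_top_iff]
    intro x _
    have : e.symm x ∈ M.comap e.toMonoidHom := by rw [ht]; trivial
    simpa using this
  · rwa [Subgroup.index_comap_of_surjective M e.surjective]

theorem comap_normalizer {G H : Type*} [Group G] [Group H] (e : G ≃* H) (V : Subgroup H) :
    (Subgroup.normalizer (V : Set H)).comap e.toMonoidHom =
      Subgroup.normalizer ((V.comap e.toMonoidHom : Subgroup G) : Set G) := by
  ext x
  rw [Subgroup.mem_comap, Subgroup.mem_normalizer_iff, Subgroup.mem_normalizer_iff]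
  constructor
  · intro h y
    have := h (e y)
    rw [Subgroup.mem_comap, Subgroup.mem_comap, map_mul, map_mul, map_inv]
    exact this
  · intro h y
    have := h (e.symm y)
    rw [Subgroup.mem_comap, Subgroup.mem_comap, map_mul, map_mul, map_inv] at this
    change e (e.symm y) ∈ V ↔ e x * e (e.symm y) * (e x)⁻¹ ∈ V at this
    rw [e.apply_symm_apply] at this
    exact this

theorem NP.congr {p : ℕ} {G H : Type*} [Group G] [Group H] (e : G ≃* H) (h : NP p G) : NP p H := by
  intro V hV hV1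
  refine Cfsg.Agent.H396.Der.congr e ?_
  rw [comap_normalizer]
  refine h _ (hV.comap_of_injective _ e.injective) fun hb => hV1 ?_
  rw [eq_bot_iff]
  intro x hx
  have h1 : e.symm x ∈ V.comap e.toMonoidHom := by
    show e (e.symm x) ∈ V
    rwa [e.apply_symm_apply]
  rw [hb, Subgroup.mem_bot] at h1
  rw [Subgroup.mem_bot, ← e.apply_symm_apply x, h1, map_one]

/-- `M` is a proper subgroup of index prime to `p` normalising a nontrivial `p`-subgroup -/
structure Loc (p : ℕ) {G : Type*} [Group G] (M : Subgroup G) : Prop where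
  ne_top : M ≠ ⊤
  idx : ¬ p ∣ M.index
  exV : ∃ V : Subgroup G, V ≠ ⊥ ∧ IsPGroup p V ∧ M ≤ Subgroup.normalizer (V : Set G)

theorem comap_ne_bot {G H : Type*} [Group G] [Group H] (e : G ≃* H) {V : Subgroup H} (hV : V ≠ ⊥) :
    V.comap e.toMonoidHom ≠ ⊥ := by
  intro hb
  apply hV
  rw [eq_bot_iff]
  intro x hx
  have h1 : e.symm x ∈ V.comap e.toMonoidHom := by
    show e (e.symm x) ∈ V
    rwa [e.apply_symm_apply]
  rw [hb, Subgroup.mem_bot] at h1
  rw [Subgroup.mem_bot, ← e.apply_symm_apply x, h1, map_one]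

theorem comap_ne_top {G H : Type*} [Group G] [Group H] (e : G ≃* H) {M : Subgroup H} (hM : M ≠ ⊤) :
    M.comap e.toMonoidHom ≠ ⊤ := by
  intro ht
  apply hM
  rw [eq_top_iff]
  intro x _
  have : e.symm x ∈ M.comap e.toMonoidHom := by rw [ht]; trivial
  simpa using this

theorem Loc.comap {p : ℕ} {G H : Type*} [Group G] [Group H] (e : G ≃* H) {M : Subgroup H} (h : Loc p M) :
    Loc p (M.comap e.toMonoidHom) := by
  obtain ⟨V, hV, hVp, hMV⟩ := h.exV
  refine ⟨comap_ne_top e h.ne_top, ?_, V.comap e.toMonoidHom, comap_ne_bot e hV,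
    hVp.comap_of_injective _ e.injective, ?_⟩
  · rw [Subgroup.index_comap_of_surjective M e.surjective]
    exact h.idx
  · rw [← comap_normalizer]
    exact Subgroup.comap_mono hMV

/-- **Borel–Tits**: from subgroups of index prime to `p` to normalisers of `p`-subgroups. -/
theorem np_of_loc {p : ℕ} {G : Type*} [Group G] [Finite G] [IsSimpleGroup G] [Fact p.Prime] (hG : HasFilt p G)
    (hc : ∃ a b : G, a * b ≠ b * a) (hD : ∀ M : Subgroup G, Loc p M → Der G M) : NP p G := by
  intro K hK hK1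
  obtain ⟨l, M, A, h, T, n, X, R, hW, hBT, hGG, hN, hconn, hX, hl⟩ := hG.data hc
  obtain ⟨g, J, hJ, h1, h2⟩ := hBT K hK hK1
  have hV1 : VJ M.toCoxeterSystem h X J ≠ ⊥ := by
    intro h3
    apply hK1
    rw [eq_bot_iff]
    refine le_trans h1 ?_
    rw [h3]
    exact (Subgroup.map_bot _).le
  have htop : cj g (PJ M.toCoxeterSystem h T X J) ≠ ⊤ := by
    intro h3
    have h4 : Subgroup.normalizer (VJ M.toCoxeterSystem h X J : Set G) = ⊤ := by
      rw [eq_top_iff]
      refine le_trans ?_ (PJ_le_normalizer_VJ R J)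
      rw [← cj_inv_cj g (PJ M.toCoxeterSystem h T X J), h3]
      intro y _
      rw [mem_cj]
      trivial
    rcases (Subgroup.normalizer_eq_top_iff.1 h4).eq_bot_or_eq_top with h6 | h6
    · exact hV1 h6
    · have h7 : IsPGroup p (⊤ : Subgroup G) := h6 ▸ isPGroup_VJ R J
      obtain ⟨a, b, hab⟩ := hc
      have h8 : IsPGroup p G := h7.of_equiv Subgroup.topEquiv
      have h9 := h8.center_nontrivial
      rw [Cfsg.Agent.KFacts.RgdLieCharP.center_eq_bot ⟨a, b, hab⟩] at h9
      exact not_nontrivial _ h9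
  refine Der.mono (hD _ ⟨htop, ?_, cj g (VJ M.toCoxeterSystem h X J), ?_, ?_, ?_⟩) h2
  · have h3 : (cj g (PJ M.toCoxeterSystem h T X J)).index = (PJ M.toCoxeterSystem h T X J).index :=
      Subgroup.index_map_equiv _ (MulAut.conj g)
    rw [h3]
    intro h4
    have h5 := Cfsg.Agent.KFacts.RgdSyl.not_dvd_relIndex (T := T) R
    rw [hGG, Subgroup.relIndex_top_right] at h5
    exact h5 (h4.trans (Subgroup.index_dvd_of_le (le_trans RGD.U_le_B B_le_PJ)))
  · intro h3
    exact hV1 ((Subgroup.map_eq_bot_iff_of_injective _ (MulAut.conj g).injective).1 h3)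
  · unfold cj
    exact (isPGroup_VJ R J).map _
  · rw [normalizer_cj]
    exact cj_mono g (PJ_le_normalizer_VJ R J)

theorem np_of_filt {p : ℕ} {G : Type*} [Group G] [Finite G] [IsSimpleGroup G] [Fact p.Prime] (hG : HasFilt p G)
    (hc : ∃ a b : G, a * b ≠ b * a) (hD : DQ p G) : NP p G :=
  np_of_loc hG hc fun M hM => hD M hM.ne_top hM.idx

/-- from `O_p(M) ≠ 1` to a normaliser -/
theorem exists_le_normalizer {p : ℕ} {G : Type*} [Group G] [Finite G] {M : Subgroup G}
    (hO : Cfsg.pCore p ↥M ≠ ⊥) :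
    ∃ V : Subgroup G, IsPGroup p V ∧ V ≠ ⊥ ∧ V ≤ M ∧ M ≤ Subgroup.normalizer (V : Set G) := by
  refine ⟨(Cfsg.pCore p ↥M).map M.subtype, (Lib.Cores.pCore_isPGroup p).map _,
    fun h => hO ((Subgroup.map_eq_bot_iff_of_injective _ M.subtype_injective).1 h), Subgroup.map_subtype_le _, ?_⟩
  have hn : (Cfsg.pCore p ↥M).Normal := Lib.Cores.pCore_normal p
  intro x hx
  rw [Subgroup.mem_normalizer_iff]
  intro y
  constructor
  · rintro ⟨z, hz, rfl⟩
    exact ⟨⟨x, hx⟩ * z * ⟨x, hx⟩⁻¹, hn.conj_mem z hz ⟨x, hx⟩, rfl⟩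
  · rintro ⟨z, hz, hzy⟩
    have h1 := hn.conj_mem z hz (⟨x, hx⟩ : M)⁻¹
    refine ⟨_, h1, ?_⟩
    have h2 : (z : G) = x * y * x⁻¹ := hzy
    show (x⁻¹ * z * x⁻¹⁻¹ : G) = y
    rw [h2]; group

theorem NP.der_of_pCore {p : ℕ} {G : Type*} [Group G] [Finite G] (h : NP p G) {M : Subgroup G} (hO : Cfsg.pCore p ↥M ≠ ⊥) :
    Der G M := by
  obtain ⟨V, hV, hV1, -, hMV⟩ := exists_le_normalizer hO
  exact Der.mono (h V hV hV1) hMV

end Cfsg.Agent.H983.ElPar
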